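import Cfsg.Agent.H74.SpN

/-!
# S5745, `F₄(9)` and `Sp₈(2)`: every faithful representation of `Sp₈(2)` of characteristic `≠ 2` has degree at least 28
(helper296)
-/

set_option autoImplicit false
set_option linter.unusedSectionVars false
set_option linter.unusedVariables false

namespace Cfsg.Agent.H296.FN

open Module Cfsg ClassicalGeometry.SympBasic Cfsg.Agent.H74.Psp

section lin

variable {k V : Type*} [Field k] [AddCommGroup V] [Module k V]

/-- a common eigenvector -/
theorem common {ι : Type*} [Finite ι] (f : ι → Module.End k V) (hsq : ∀ i, f i * f i = 1)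
    (hc : ∀ i j, f i * f j = f j * f i) (z : Module.End k V) (hz : ∀ i, f i * z = z * f i) {x0 : V} (hx0 : x0 ≠ 0)
    (hzx : z x0 = -x0) : ∃ x, x ≠ 0 ∧ z x = -x ∧ ∀ i, f i x = x ∨ f i x = -x := by
  classical
  have hft := Fintype.ofFinite ι
  have key : ∀ s : Finset ι, ∃ x, x ≠ 0 ∧ z x = -x ∧ ∀ i ∈ s, f i x = x ∨ f i x = -x := by
    intro s
    induction s using Finset.induction_on with
    | empty => exact ⟨x0, hx0, hzx, by simp⟩
    | insert j s hj ih =>
      obtain ⟨x, hx, hzx, hs⟩ := ih
      by_cases h : f j x = -x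
      · refine ⟨x, hx, hzx, ?_⟩
        intro i hi
        rcases Finset.mem_insert.1 hi with rfl | hi
        · exact Or.inr h
        · exact hs i hi
      · refine ⟨x + f j x, ?_, ?_, ?_⟩
        · intro e
          apply h
          rw [add_comm] at e
          exact eq_neg_of_add_eq_zero_left e
        · have h1 : z (f j x) = f j (z x) := (LinearMap.congr_fun (hz j) x).symm
          rw [map_add, h1, hzx, map_neg]
          abel
        · intro i hi
          have h1 : ∀ y, f j (f j y) = y := fun y => LinearMap.congr_fun (hsq j) y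
          rcases Finset.mem_insert.1 hi with rfl | hi
          · left
            rw [map_add, h1, add_comm]
          · have h2 : f i (f j x) = f j (f i x) := LinearMap.congr_fun (hc i j) x
            rcases hs i hi with h3 | h3
            · left
              rw [map_add, h2, h3]
            · right
              rw [map_add, h2, h3, map_neg]
              abel
  obtain ⟨x, h1, h2, h3⟩ := key Finset.univ
  exact ⟨x, h1, h2, fun i => h3 i (Finset.mem_univ i)⟩

/-- the sign -/
def sg (k : Type*) [Field k] (a : ZMod 2) : k := if a = 0 then 1 else -1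

theorem zm (a : ZMod 2) : a = 0 ∨ a = 1 := by
  revert a; decide

theorem sg_zero : sg k 0 = 1 := if_pos rfl
theorem sg_one : sg k 1 = -1 := if_neg (by decide)

theorem sg_add (a b : ZMod 2) : sg k (a + b) = sg k a * sg k b := by
  rcases zm a with rfl | rfl <;> rcases zm b with rfl | rfl
  · rw [add_zero, sg_zero, mul_one]
  · rw [zero_add, sg_zero, one_mul]
  · rw [add_zero, sg_zero, mul_one]
  · rw [show (1 : ZMod 2) + 1 = 0 by decide, sg_zero, sg_one]; ring

theorem sg_inj (h2 : (2 : k) ≠ 0) {a b : ZMod 2} (h : sg k a = sg k b) : a = b := by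
  rcases zm a with rfl | rfl <;> rcases zm b with rfl | rfl
  · rfl
  · exfalso
    rw [sg_zero, sg_one] at h
    apply h2
    linear_combination h
  · exfalso
    rw [sg_zero, sg_one] at h
    apply h2
    linear_combination -h
  · rfl

end lin

/-! ### quadratic forms in six variables over the field with two elements -/

abbrev A6 := Fin 6 → ZMod 2

/-- the symplectic form -/
def bt (a b : A6) : ZMod 2 := a 0 * b 1 + a 1 * b 0 + (a 2 * b 3 + a 3 * b 2) + (a 4 * b 5 + a 5 * b 4)

/-- the quadratic form -/
def q0 (a : A6) : ZMod 2 := a 0 * a 1 + a 2 * a 3 + a 4 * a 5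

theorem q0_add (a b : A6) : q0 (a + b) = q0 a + q0 b + bt a b := by
  simp only [q0, bt, Pi.add_apply]
  ring

theorem bt_comm (a b : A6) : bt a b = bt b a := by
  simp only [bt]
  ring

theorem count : ∀ c : Fin 6 → ZMod 2, 28 ≤ (Finset.univ.filter (fun a : Fin 6 → ZMod 2 =>
    c 0 * a 0 + c 1 * a 1 + c 2 * a 2 + c 3 * a 3 + c 4 * a 4 + c 5 * a 5 +
      (a 0 * a 1 + a 2 * a 3 + a 4 * a 5) = 0)).card := by decide +kernel

/-- a quadratic form with polar form `bt` has at least 28 zeros -/
theorem zeros (q : A6 → ZMod 2) (hq : ∀ a b, q (a + b) = q a + q b + bt a b) :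
    28 ≤ (Finset.univ.filter (fun a : A6 => q a = 0)).card := by
  let l : A6 →+ ZMod 2 := {
    toFun := fun a => q a + q0 a
    map_zero' := by
      have h1 := hq 0 0
      have h2 : bt 0 0 = 0 := by decide
      have h3 : q0 0 = 0 := by decide
      rw [add_zero, h2, add_zero] at h1
      rw [h3, add_zero]
      have h4 : q 0 + q 0 = 0 := CharTwo.add_self_eq_zero _
      rw [h1, h4]
    map_add' := fun a b => by
      rw [hq, q0_add]
      have : bt a b + bt a b = 0 := CharTwo.add_self_eq_zero _
      linear_combination this }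
  have hl : ∀ a : A6, l a = l (Pi.single 0 1) * a 0 + l (Pi.single 1 1) * a 1 + l (Pi.single 2 1) * a 2 +
      l (Pi.single 3 1) * a 3 + l (Pi.single 4 1) * a 4 + l (Pi.single 5 1) * a 5 := by
    intro a
    have h1 : a = ∑ i, Pi.single i (a i) := (Finset.univ_sum_single a).symm
    have h2 : ∀ i, l (Pi.single i (a i)) = l (Pi.single i 1) * a i := by
      intro i
      rcases zm (a i) with h | h
      · rw [h, Pi.single_zero, map_zero, mul_zero]
      · rw [h, mul_one]
    conv_lhs => rw [h1, map_sum]
    simp only [Fin.sum_univ_six, h2]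
  refine (count fun i => l (Pi.single i 1)).trans (Finset.card_le_card ?_)
  intro a ha
  rw [Finset.mem_filter] at ha ⊢
  refine ⟨Finset.mem_univ _, ?_⟩
  have h1 := ha.2
  rw [← hl a] at h1
  have h2 : q a + q0 a + q0 a = 0 := h1
  have h3 : q0 a + q0 a = 0 := CharTwo.add_self_eq_zero _
  rw [add_assoc, h3, add_zero] at h2
  exact h2

/-! ### the representation -/

section main

variable (K : Type*) [Field K] [CharP K 2]

/-- the prime field -/
noncomputable def cs : ZMod 2 →+* K := ZMod.castHom (dvd_refl 2) K

/-- the hyperbolic complement -/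
noncomputable def w (a : A6) : Fin 4 ⊕ Fin 4 → K :=
  Sum.elim ![0, cs K (a 0), cs K (a 2), cs K (a 4)] ![0, cs K (a 1), cs K (a 3), cs K (a 5)]

/-- the isotropic vector -/
def e0 : Fin 4 ⊕ Fin 4 → K := Pi.single (Sum.inl 0) 1

theorem w_add (a b : A6) : w K (a + b) = w K a + w K b := by
  ext i
  rcases i with i | i <;> fin_cases i <;> simp [w]

theorem w_zero : w K 0 = 0 := by
  ext i
  rcases i with i | i <;> fin_cases i <;> simp [w]

theorem w_smul (c : ZMod 2) (a : A6) : w K (c • a) = cs K c • w K a := by
  ext i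
  rcases i with i | i <;> fin_cases i <;> simp [w]

theorem two_eq : (2 : K) = 0 := by
  have := CharP.cast_eq_zero K 2
  exact_mod_cast this

theorem B_w (a b : A6) : sympBilin 4 K (w K a) (w K b) = cs K (bt a b) := by
  have h2 := two_eq K
  rw [sympBilin_apply, sympForm_eq_sum, Fin.sum_univ_four]
  simp only [w, bt, Sum.elim_inl, Sum.elim_inr, Matrix.cons_val_zero, Matrix.cons_val_one, Matrix.cons_val,
    map_add, map_mul]
  linear_combination (-(cs K (a 0) * cs K (b 1)) - cs K (a 2) * cs K (b 3) - cs K (a 4) * cs K (b 5)) * h2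

theorem B_e (a : A6) : sympBilin 4 K (e0 K) (w K a) = 0 := by
  rw [sympBilin_apply, e0, sympForm_single_inl_left]
  simp [w]

local notation "BB" => sympBilin 4 K

theorem hB : Symp (sympBilin 4 K) := symp_sympBilin 4

/-- the elements of the unipotent radical -/
noncomputable def fE (a : A6) : Sp (sympBilin 4 K) := E (sympBilin 4 K) (e0 K) (w K a) 0

/-- the central transvection -/
noncomputable def zE (c : ZMod 2) : Sp (sympBilin 4 K) := E (sympBilin 4 K) (e0 K) 0 (cs K c)

theorem fE_mul (a b : A6) : fE K a * fE K b = fE K (a + b) * zE K (bt a b) := by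
  unfold fE zE
  rw [E_mul (hB K) (B_e K a) (B_e K b), E_mul (hB K) (B_e K (a + b)) (map_zero _), w_add, B_w, bt_comm b a]
  simp

theorem fE_zero : fE K 0 = 1 := by
  unfold fE
  rw [w_zero, E_one (hB K)]

theorem zE_zero : zE K 0 = 1 := by
  unfold zE
  rw [map_zero, E_one (hB K)]

theorem bt_self (a : A6) : bt a a = 0 := by
  simp only [bt]
  have h : ∀ x : ZMod 2, x + x = 0 := fun x => CharTwo.add_self_eq_zero x
  linear_combination h (a 0 * a 1) + h (a 2 * a 3) + h (a 4 * a 5)

theorem A6_add_self (a : A6) : a + a = 0 := by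
  funext i
  exact CharTwo.add_self_eq_zero (a i)

theorem fE_sq (a : A6) : fE K a * fE K a = 1 := by
  rw [fE_mul, bt_self, zE_zero, mul_one, A6_add_self, fE_zero]

theorem fE_comm (a b : A6) : fE K a * fE K b = fE K b * fE K a := by
  rw [fE_mul, fE_mul, add_comm a b, bt_comm a b]

theorem zE_comm (a : A6) (c : ZMod 2) : fE K a * zE K c = zE K c * fE K a := by
  unfold fE zE
  rw [E_mul (hB K) (B_e K a) (map_zero _), E_mul (hB K) (map_zero _) (B_e K a), add_comm (0 : Fin 4 ⊕ Fin 4 → K)]
  simp

theorem zE_sq : zE K 1 * zE K 1 = 1 := by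
  unfold zE
  rw [E_mul (hB K) (map_zero _) (map_zero _), map_one]
  have h2 := two_eq K
  have h3 : (1 : K) + 1 + sympBilin 4 K (0 : Fin 4 ⊕ Fin 4 → K) 0 = 0 := by
    rw [map_zero]
    linear_combination h2
  rw [h3, add_zero, E_one (hB K)]

/-- the transvections in the complement -/
noncomputable def tE (a : A6) : Sp (sympBilin 4 K) := t (sympBilin 4 K) (w K a) 1

theorem tE_conj (a b : A6) : tE K a * fE K b * (tE K a)⁻¹ = fE K (b + bt b a • a) := by
  unfold tE fE
  rw [conj_E (hB K) _ (B_e K b), t_smul (hB K), t_smul (hB K), B_e, B_w, w_add, w_smul]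
  simp

theorem tE_mul (a b : A6) : fE K b * tE K a = tE K a * fE K (b + bt b a • a) := by
  have h1 := tE_conj K a (b + bt b a • a)
  have h2 : b + bt b a • a + bt (b + bt b a • a) a • a = b := by
    have h3 : bt (b + bt b a • a) a = bt b a := by
      rcases zm (bt b a) with h | h
      · rw [h, zero_smul, add_zero, h]
      · rw [h, one_smul]
        have h4 : bt (b + a) a = bt b a + bt a a := by
          simp only [bt, Pi.add_apply]
          ring
        rw [h4, bt_self, add_zero, h]
    rw [h3, add_assoc, A6_add_self, add_zero]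
  rw [h2] at h1
  rw [← h1]
  group

variable {k V : Type*} [Field k] [AddCommGroup V] [Module k V] [FiniteDimensional k V]

theorem bt_nd {a b : A6} (h : ∀ c, bt c a = bt c b) : a = b := by
  have h0 := h (Pi.single 1 1)
  have h1 := h (Pi.single 0 1)
  have h2 := h (Pi.single 3 1)
  have h3 := h (Pi.single 2 1)
  have h4 := h (Pi.single 5 1)
  have h5 := h (Pi.single 4 1)
  simp [bt] at h0 h1 h2 h3 h4 h5
  funext i
  fin_cases i <;> assumption

/-- **the bound** -/
theorem deg_ge (h2 : (2 : k) ≠ 0) (ρ : Sp (sympBilin 4 K) →* Module.End k V) (hz : ρ (zE K 1) ≠ 1) :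
    28 ≤ finrank k V := by
  classical
  obtain ⟨v, hv⟩ : ∃ v, ρ (zE K 1) v ≠ v := by
    by_contra hcon
    push Not at hcon
    exact hz (LinearMap.ext hcon)
  have hzz : ∀ y, ρ (zE K 1) (ρ (zE K 1) y) = y := fun y => by
    have := LinearMap.congr_fun (congrArg ρ (zE_sq K)) y
    rw [map_mul, map_one] at this
    exact this
  obtain ⟨x, hx0, hzx, hx⟩ := common (fun a => ρ (fE K a)) (fun a => by
      show ρ (fE K a) * ρ (fE K a) = 1
      rw [← map_mul, fE_sq, map_one]) (fun a b => by
      show ρ (fE K a) * ρ (fE K b) = ρ (fE K b) * ρ (fE K a)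
      rw [← map_mul, ← map_mul, fE_comm]) (ρ (zE K 1)) (fun a => by
      show ρ (fE K a) * ρ (zE K 1) = ρ (zE K 1) * ρ (fE K a)
      rw [← map_mul, ← map_mul, zE_comm]) (x0 := v - ρ (zE K 1) v) (fun e => hv (sub_eq_zero.1 e).symm) (by
      rw [map_sub, hzz]
      abel)
  let q : A6 → ZMod 2 := fun a => if ρ (fE K a) x = x then 0 else 1
  have hq : ∀ a, ρ (fE K a) x = sg k (q a) • x := by
    intro a
    by_cases h : ρ (fE K a) x = x
    · have : q a = 0 := if_pos h
      rw [this, sg_zero, one_smul, h]
    · have : q a = 1 := if_neg h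
      rw [this, sg_one, neg_one_smul]
      exact (hx a).resolve_left h
  have hzq : ∀ c : ZMod 2, ρ (zE K c) x = sg k c • x := by
    intro c
    rcases zm c with rfl | rfl
    · rw [zE_zero, map_one, sg_zero, one_smul]; rfl
    · rw [sg_one, neg_one_smul, hzx]
  have hadd : ∀ a b, q (a + b) = q a + q b + bt a b := by
    intro a b
    have h1 := LinearMap.congr_fun (congrArg ρ (fE_mul K a b)) x
    rw [map_mul, map_mul] at h1
    change ρ (fE K a) (ρ (fE K b) x) = ρ (fE K (a + b)) (ρ (zE K (bt a b)) x) at h1
    rw [hq b, map_smul, hq a, hzq, map_smul, hq (a + b), smul_smul, smul_smul, ← sg_add, ← sg_add] at h1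
    have h3 := sg_inj h2 (smul_left_injective k hx0 h1)
    have h4 : bt a b + bt a b = 0 := CharTwo.add_self_eq_zero _
    linear_combination -h3 - h4
  let U := {a : A6 // q a = 0}
  have hU : 28 ≤ Fintype.card U := by
    have := zeros q hadd
    rw [Fintype.card_subtype]
    exact this
  let y : U → V := fun a => ρ (tE K a.1) x
  let χ : U → A6 → k := fun a b => sg k (q b + bt b a.1)
  have hinjT : ∀ a, Function.Injective (ρ (tE K a)) := by
    intro a u u' e
    have h1 : ∀ u, ρ (tE K a)⁻¹ (ρ (tE K a) u) = u := fun u => by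
      have := LinearMap.congr_fun (congrArg ρ (inv_mul_cancel (tE K a))) u
      rw [map_mul, map_one] at this
      exact this
    rw [← h1 u, e, h1]
  have hy0 : ∀ a, y a ≠ 0 := by
    intro a e
    apply hx0
    apply hinjT a.1
    rw [map_zero]
    exact e
  have hyE : ∀ (a : U) (b : A6), ρ (fE K b) (y a) = χ a b • y a := by
    intro a b
    have h1 := LinearMap.congr_fun (congrArg ρ (tE_mul K a.1 b)) x
    rw [map_mul, map_mul] at h1
    change ρ (fE K b) (y a) = ρ (tE K a.1) (ρ (fE K (b + bt b a.1 • a.1)) x) at h1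
    rw [h1, hq, map_smul]
    congr 2
    rcases zm (bt b a.1) with h | h
    · rw [h, zero_smul, add_zero, add_zero]
    · rw [h, one_smul, hadd, a.2, add_zero, h]
  have hχ : Function.Injective χ := by
    intro a a' e
    apply Subtype.ext
    apply bt_nd
    intro c
    have h1 := congrFun e c
    have h3 := sg_inj h2 h1
    exact add_left_cancel h3
  have hind : iSupIndep fun χ : A6 → k => ⨅ b, (ρ (fE K b)).maxGenEigenspace (χ b) := by
    apply Module.End.independent_iInf_maxGenEigenspace_of_forall_mapsTo
    intro i j φ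
    apply Module.End.mapsTo_maxGenEigenspace_of_comm
    show ρ (fE K j) * ρ (fE K i) = ρ (fE K i) * ρ (fE K j)
    rw [← map_mul, ← map_mul, fE_comm]
  have hLI : LinearIndependent k y := by
    refine (hind.comp hχ).linearIndependent _ (fun a => ?_) hy0
    rw [Function.comp_apply, Submodule.mem_iInf]
    intro b
    have h1 : y a ∈ (ρ (fE K b)).eigenspace (χ a b) := Module.End.mem_eigenspace_iff.2 (hyE a b)
    exact Module.End.eigenspace_le_maxGenEigenspace h1
  exact hU.trans hLI.fintype_card_le_finrank

end main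

end Cfsg.Agent.H296.FN
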